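import Mathlib
import Cfsg.Agent.Lib.Helper27.Zass.T1Defs

/-!
# ZASS package [T1-F]: a subgroup with a shape containing two different lines is a plane
(helper82)
-/

set_option autoImplicit false

namespace Cfsg.Agent.Lib.Helper82.Zass

open Cfsg.Agent.Lib.Helper51.Zass Cfsg.Agent.Lib.Helper27.Zass

universe u

/-- A line has 24 elements. -/
theorem card_of_isLine {G : Type u} [Group G] {H : Subgroup G} (h : IsLine H) :
    Nat.card H = 24 := by
  obtain ⟨f, hf, hk⟩ := h
  have h1 : Nat.card f.ker * f.ker.index = Nat.card H := Subgroup.card_mul_index f.ker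
  have h2 : f.ker.index = Nat.card f.range := Subgroup.index_ker f
  have h3 : Nat.card f.range = 12 := by
    rw [MonoidHom.range_eq_top.mpr hf, Subgroup.card_top, nat_card_alternatingGroup]
    simp [Nat.factorial]
  rw [← h1, hk, h2, h3]

/-- [T1-F] -/
theorem pkgT1F : PkgT1F.{u} := by
  intro G _ _ w a b hS hL1 hL2 hne
  have hc1 := card_of_isLine hL1
  have hc2 := card_of_isLine hL2
  have hle1 : Subgroup.closure ({w, a} : Set G) ≤ Subgroup.closure {w, a, b} := by
    apply Subgroup.closure_mono
    intro x hx
    rcases hx with rfl | rfl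
    · simp
    · simp
  have hle2 : Subgroup.closure ({w, b} : Set G) ≤ Subgroup.closure {w, a, b} := by
    apply Subgroup.closure_mono
    intro x hx
    rcases hx with rfl | rfl
    · simp
    · simp
  have hd1 := Subgroup.card_dvd_of_le hle1
  rw [hc1] at hd1
  rcases hS with h | h | h | h
  · exfalso
    rw [h] at hd1
    omega
  · exfalso
    rw [h] at hd1
    omega
  · exfalso
    have hc := card_of_isLine h
    have e1 := Subgroup.eq_of_le_of_card_ge hle1 (by rw [hc, hc1])
    have e2 := Subgroup.eq_of_le_of_card_ge hle2 (by rw [hc, hc2])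
    exact hne (e1.trans e2.symm)
  · exact h

end Cfsg.Agent.Lib.Helper82.Zass
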