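import Mathlib
import Cfsg.Agent.Lib.Helper27.Zass.T1Defs

/-!
# ZASS package [T1-K]: in a line `closure {w, a}` one has `2, 3 ≠ 0` and
`W A + A W + A + W ∈ {0, -1}` (helper82)
-/

set_option autoImplicit false

namespace Cfsg.Agent.Lib.Helper82.Zass

open Cfsg.Agent.Lib.Helper51.Zass Cfsg.Agent.Lib.Helper27.Zass

universe u

set_option maxRecDepth 100000 in
/-- The `A₄` fact, stated in `Sym(4)`. -/
theorem a4_fact_perm : ∀ s t : Equiv.Perm (Fin 4), s ^ 3 = 1 → s ≠ 1 → t ^ 3 = 1 → t ≠ 1 →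
    t ≠ s → t ≠ s⁻¹ →
    ((s * t) ^ 2 = 1 ∧ s * t ≠ 1) ∨ ((s * t⁻¹) ^ 2 = 1 ∧ s * t⁻¹ ≠ 1) := by
  decide

/-- The `A₄` fact. -/
theorem a4_fact (s t : alternatingGroup (Fin 4)) (hs3 : s ^ 3 = 1) (hs1 : s ≠ 1)
    (ht3 : t ^ 3 = 1) (ht1 : t ≠ 1) (hts : t ≠ s) (hts' : t ≠ s⁻¹) :
    ((s * t) ^ 2 = 1 ∧ s * t ≠ 1) ∨ ((s * t⁻¹) ^ 2 = 1 ∧ s * t⁻¹ ≠ 1) := by
  have h := a4_fact_perm (s : Equiv.Perm (Fin 4)) (t : Equiv.Perm (Fin 4))
    (congrArg Subtype.val hs3) (fun h => hs1 (Subtype.ext h))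
    (congrArg Subtype.val ht3) (fun h => ht1 (Subtype.ext h))
    (fun h => hts (Subtype.ext h)) (fun h => hts' (Subtype.ext h))
  rcases h with ⟨h1, h2⟩ | ⟨h1, h2⟩
  · left
    exact ⟨Subtype.ext h1, fun h => h2 (congrArg Subtype.val h)⟩
  · right
    exact ⟨Subtype.ext h1, fun h => h2 (congrArg Subtype.val h)⟩

/-- The ring computation. -/
theorem ring_key {R : Type*} [Ring R] (W A U : R) (hW : W * W + W + 1 = 0)
    (hA : A * A + A + 1 = 0) (hWA : (W * A) * (W * A) = -1) (hU : (W * A) * U = 1) :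
    W * A + A * W + A + W = -1 := by
  have h1 : (W * A) * (W * A) = (W * A + A * W + A + W + 1) * (W * A) - 1 := by
    linear_combination (norm := noncomm_ring) (-A) * hW * A - hW * A + hA
  have h2 : (W * A + A * W + A + W + 1) * (W * A) = 0 := by
    rw [hWA] at h1
    have h3 := h1.symm
    rw [sub_eq_iff_eq_add] at h3
    rw [h3]; simp
  have h4 : W * A + A * W + A + W + 1 = 0 := by
    calc W * A + A * W + A + W + 1 = (W * A + A * W + A + W + 1) * ((W * A) * U) := by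
          rw [hU, mul_one]
      _ = 0 := by rw [← mul_assoc, h2, zero_mul]
  exact eq_neg_of_add_eq_zero_left h4

/-- The core: if `(w b)² ∈ ker f` and `w b ∉ ker f` then `2, 3 ≠ 0` and
`W B + B W + B + W = -1`. -/
theorem t1k_core {p : ℕ} [Fact p.Prime] {V : Type u} [AddCommGroup V] [Module (ZMod p) V]
    [Nontrivial V] {G : Type u} [Group G] [Finite G] (ρ : G →* Module.End (ZMod p) V)
    (hfpf : ∀ g : G, g ≠ 1 → ∀ v : V, ρ g v = v → v = 0)
    (hui : ∀ s t : G, orderOf s = 2 → orderOf t = 2 → s = t)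
    (L : Subgroup G) (f : L →* alternatingGroup (Fin 4)) (hk : Nat.card f.ker = 2)
    (w b : G) (hw : orderOf w = 3) (hb : orderOf b = 3) (x y : L) (hx : (x : G) = w)
    (hy : (y : G) = b) (hsq : (f (x * y)) ^ 2 = 1) (hne : f (x * y) ≠ 1) :
    ((2 : ZMod p) ≠ 0 ∧ (3 : ZMod p) ≠ 0) ∧ ρ w * ρ b + ρ b * ρ w + ρ b + ρ w = -1 := by
  classical
  haveI : Fact (Nat.Prime 2) := ⟨Nat.prime_two⟩
  have hker2 : ∀ z : L, f z = 1 → z ^ 2 = 1 := by
    intro z hz
    have h1 : (⟨z, hz⟩ : f.ker) ^ Nat.card f.ker = 1 := pow_card_eq_one'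
    rw [hk] at h1
    exact congrArg Subtype.val h1
  obtain ⟨g, hg⟩ : ∃ g : L, g = x * y := ⟨_, rfl⟩
  rw [← hg] at hsq hne
  have hg1 : g ≠ 1 := by
    intro h; apply hne; rw [h, map_one]
  have hg2ker : f (g ^ 2) = 1 := by rw [map_pow]; exact hsq
  have hg2 : g ^ 2 ≠ 1 := by
    intro h
    have ho : orderOf (g : G) = 2 := by
      apply orderOf_eq_prime
      · have := congrArg Subtype.val h
        simpa using this
      · intro h'; exact hg1 (Subtype.ext h')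
    haveI : Nontrivial f.ker := by
      rw [← Finite.one_lt_card_iff_nontrivial, hk]; norm_num
    obtain ⟨k, hk1⟩ := exists_ne (1 : f.ker)
    have hkk : (k : L) ^ 2 = 1 := hker2 k (MonoidHom.mem_ker.mp k.2)
    have ho' : orderOf ((k : L) : G) = 2 := by
      apply orderOf_eq_prime
      · have := congrArg Subtype.val hkk
        simpa using this
      · intro h'; apply hk1; apply Subtype.ext; apply Subtype.ext; exact h'
    have heq : (g : G) = ((k : L) : G) := hui _ _ ho ho'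
    have heq' : g = (k : L) := Subtype.ext heq
    apply hne
    rw [heq']; exact MonoidHom.mem_ker.mp k.2
  have hg4 : (g ^ 2) ^ 2 = 1 := hker2 _ hg2ker
  obtain ⟨h, hh⟩ : ∃ h : G, h = (w * b) ^ 2 := ⟨_, rfl⟩
  have hgG : (g : G) = w * b := by rw [hg, Subgroup.coe_mul, hx, hy]
  have hh1 : h ≠ 1 := by
    intro h'; apply hg2; apply Subtype.ext
    rw [Subgroup.coe_pow, hgG, ← hh, h']; rfl
  have hhh : h * h = 1 := by
    have := congrArg Subtype.val hg4
    rw [Subgroup.coe_pow, Subgroup.coe_pow, hgG, ← hh, sq] at this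
    exact this
  have hT : ρ h = -1 := by
    apply LinearMap.ext
    intro v
    have h1 : ρ h (ρ h v + v) = ρ h v + v := by
      rw [map_add]
      have : ρ h (ρ h v) = v := by
        rw [← Module.End.mul_apply, ← map_mul, hhh, map_one, Module.End.one_apply]
      rw [this, add_comm]
    have h2 := hfpf h hh1 _ h1
    rw [LinearMap.neg_apply, Module.End.one_apply]
    exact eq_neg_of_add_eq_zero_left h2
  obtain ⟨v0, hv0⟩ := exists_ne (0 : V)
  have h2ne : (2 : ZMod p) ≠ 0 := by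
    intro h2
    apply hv0
    apply hfpf h hh1 v0
    rw [hT, LinearMap.neg_apply, Module.End.one_apply]
    have : (2 : ZMod p) • v0 = 0 := by rw [h2, zero_smul]
    rw [two_smul] at this
    exact (eq_neg_of_add_eq_zero_left this).symm
  have hW := quad_of_order_three ρ hfpf w hw
  have hw1 : w ≠ 1 := by rintro rfl; rw [orderOf_one] at hw; omega
  have h3ne : (3 : ZMod p) ≠ 0 := by
    intro h3
    apply hv0
    have hWv : ρ w (ρ w v0) + ρ w v0 + v0 = 0 := by
      have := congrArg (fun T : Module.End (ZMod p) V => T v0) hW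
      simpa using this
    have h3v : ρ w v0 + ρ w v0 + ρ w v0 = 0 := by
      have : (3 : ZMod p) • ρ w v0 = 0 := by rw [h3, zero_smul]
      have e : (3 : ZMod p) = 1 + 1 + 1 := by norm_num
      rw [e, add_smul, add_smul, one_smul] at this
      exact this
    have hu : ρ w (ρ w v0 - v0) = ρ w v0 - v0 := by
      rw [map_sub, ← sub_eq_zero]
      have : ρ w (ρ w v0) - ρ w v0 - (ρ w v0 - v0)
          = (ρ w (ρ w v0) + ρ w v0 + v0) - (ρ w v0 + ρ w v0 + ρ w v0) := by abel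
      rw [this, hWv, h3v, sub_zero]
    have := hfpf w hw1 _ hu
    exact hfpf w hw1 v0 (sub_eq_zero.mp this)
  have hWB : (ρ w * ρ b) * (ρ w * ρ b) = -1 := by
    rw [← map_mul, ← map_mul, ← sq, ← hh, hT]
  have hU : (ρ w * ρ b) * ρ (w * b)⁻¹ = 1 := by
    rw [← map_mul, ← map_mul, mul_inv_cancel, map_one]
  exact ⟨⟨h2ne, h3ne⟩,
    ring_key (ρ w) (ρ b) _ hW (quad_of_order_three ρ hfpf b hb) hWB hU⟩

/-- [T1-K] -/
theorem pkgT1K : PkgT1K.{u} := by
  intro p _ V _ _ _ _ G _ _ ρ hfpf hui w a hw ha hL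
  classical
  obtain ⟨f, hf, hk⟩ := hL
  have hwL : w ∈ Subgroup.closure ({w, a} : Set G) := Subgroup.subset_closure (by simp)
  have haL : a ∈ Subgroup.closure ({w, a} : Set G) := Subgroup.subset_closure (by simp)
  have hw1 : w ≠ 1 := by rintro rfl; rw [orderOf_one] at hw; omega
  have ha1 : a ≠ 1 := by rintro rfl; rw [orderOf_one] at ha; omega
  have hw3 : w ^ 3 = 1 := by rw [← hw]; exact pow_orderOf_eq_one w
  have ha3 : a ^ 3 = 1 := by rw [← ha]; exact pow_orderOf_eq_one a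
  have hker2 : ∀ z : Subgroup.closure ({w, a} : Set G), f z = 1 → z ^ 2 = 1 := by
    intro z hz
    have h1 : (⟨z, hz⟩ : f.ker) ^ Nat.card f.ker = 1 := pow_card_eq_one'
    rw [hk] at h1
    exact congrArg Subtype.val h1
  have hnotker : ∀ (c : G) (hc : c ∈ Subgroup.closure ({w, a} : Set G)), c ^ 3 = 1 → c ≠ 1 →
      f ⟨c, hc⟩ ≠ 1 := by
    intro c hc hc3 hc1 h
    have h2 := congrArg Subtype.val (hker2 _ h)
    have h2' : c ^ 2 = 1 := by simpa using h2
    apply hc1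
    calc c = c ^ 3 * (c ^ 2)⁻¹ := by group
      _ = 1 := by rw [hc3, h2']; simp
  have hfw1 := hnotker w hwL hw3 hw1
  have hfa1 := hnotker a haL ha3 ha1
  have hfw3 : (f ⟨w, hwL⟩) ^ 3 = 1 := by
    rw [← map_pow]
    have : (⟨w, hwL⟩ : Subgroup.closure ({w, a} : Set G)) ^ 3 = 1 := Subtype.ext hw3
    rw [this, map_one]
  have hfa3 : (f ⟨a, haL⟩) ^ 3 = 1 := by
    rw [← map_pow]
    have : (⟨a, haL⟩ : Subgroup.closure ({w, a} : Set G)) ^ 3 = 1 := Subtype.ext ha3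
    rw [this, map_one]
  have hnot : f ⟨a, haL⟩ ∉ Subgroup.zpowers (f ⟨w, hwL⟩) := by
    intro hz
    have hall : ∀ z : Subgroup.closure ({w, a} : Set G),
        f z ∈ Subgroup.zpowers (f ⟨w, hwL⟩) := by
      intro z
      have hle : Subgroup.closure ({w, a} : Set G) ≤
          ((Subgroup.zpowers (f ⟨w, hwL⟩)).comap f).map (Subgroup.subtype _) := by
        rw [Subgroup.closure_le]
        intro c hc
        rcases hc with hc | hc
        · exact ⟨⟨w, hwL⟩, Subgroup.mem_zpowers _, hc.symm⟩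
        · exact ⟨⟨a, haL⟩, hz, hc.symm⟩
      obtain ⟨z', hz', hzz⟩ := hle z.2
      have : z' = z := Subtype.ext hzz
      rw [← this]; exact hz'
    have htop : Subgroup.zpowers (f ⟨w, hwL⟩) = ⊤ := by
      rw [eq_top_iff]; intro y _
      obtain ⟨z, rfl⟩ := hf y
      exact hall z
    have h1 : Nat.card (Subgroup.zpowers (f ⟨w, hwL⟩)) ≤ 3 := by
      rw [Nat.card_zpowers]; exact orderOf_le_of_pow_eq_one (by norm_num) hfw3
    rw [htop, Subgroup.card_top, nat_card_alternatingGroup] at h1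
    simp [Nat.factorial] at h1
  have hts : f ⟨a, haL⟩ ≠ f ⟨w, hwL⟩ := fun h => hnot (h ▸ Subgroup.mem_zpowers _)
  have hts' : f ⟨a, haL⟩ ≠ (f ⟨w, hwL⟩)⁻¹ :=
    fun h => hnot (h ▸ Subgroup.inv_mem _ (Subgroup.mem_zpowers _))
  rcases a4_fact _ _ hfw3 hfw1 hfa3 hfa1 hts hts' with ⟨h1, h2⟩ | ⟨h1, h2⟩
  · obtain ⟨h23, hz⟩ := t1k_core ρ hfpf hui _ f hk w a hw ha ⟨w, hwL⟩ ⟨a, haL⟩ rfl rfl
      (by rw [map_mul]; exact h1) (by rw [map_mul]; exact h2)
    exact ⟨h23, Or.inr hz⟩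
  · have hai : orderOf a⁻¹ = 3 := by rw [orderOf_inv]; exact ha
    obtain ⟨h23, hz⟩ := t1k_core ρ hfpf hui _ f hk w a⁻¹ hw hai ⟨w, hwL⟩ (⟨a, haL⟩)⁻¹ rfl rfl
      (by rw [map_mul, map_inv]; exact h1) (by rw [map_mul, map_inv]; exact h2)
    refine ⟨h23, Or.inl ?_⟩
    have hAi : ρ a⁻¹ = -ρ a - 1 := by
      have hinv : a * a = a⁻¹ := by
        rw [pow_succ, sq] at ha3
        exact mul_eq_one_iff_eq_inv.mp ha3
      rw [← hinv, map_mul]
      exact sq_of_order_three ρ hfpf a ha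
    rw [hAi] at hz
    have : ρ w * ρ a + ρ a * ρ w + ρ a + ρ w
        = -(ρ w * (-ρ a - 1) + (-ρ a - 1) * ρ w + (-ρ a - 1) + ρ w) - 1 := by noncomm_ring
    rw [this, hz]; simp

end Cfsg.Agent.Lib.Helper82.Zass
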